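import Cfsg.Agent.H755.Leo.Rat
import Cfsg.Agent.H337.JankoOfIso
import Cfsg.Agent.S1703
import Cfsg.Agent.S5577

/-!
# The degrees of the faithful characters of `J₄` are at least 36 (helper755, for S4747)
-/

set_option autoImplicit false

universe u

namespace Cfsg.Agent.H755.Leo

open Subgroup Cfsg

/-- a Sylow subgroup as in S5577 has prime order, and rational elements -/
theorem sylow_data {G : Type u} [Group G] [Finite G] {r : ℕ} [hr : Fact r.Prime] (U : Sylow r G)
    (hC : centralizer ((U : Subgroup G) : Set G) = (U : Subgroup G))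
    (hN : Nat.card ↥(normalizer ((U : Subgroup G) : Set G)) = r * (r - 1)) (h1 : 2 < r) :
    ∃ u : G, orderOf u = r ∧ (∀ i, 0 < i → i < r → IsConj u (u ^ i)) ∧
      Nat.card (centralizer ({u} : Set G)) = r := by
  have hUN : Nat.card U ∣ r * (r - 1) := by
    rw [← hN]
    exact card_dvd_of_le le_normalizer
  obtain ⟨k, hk⟩ := IsPGroup.iff_card.1 U.2
  have hk' : Nat.card U = r ^ k := hk
  have hk1 : k ≤ 1 := by
    by_contra hlt
    push Not at hlt
    have h3 : r ^ 2 ∣ r * (r - 1) := (pow_dvd_pow r hlt).trans (hk' ▸ hUN)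
    rw [pow_two] at h3
    have h4 := Nat.dvd_of_mul_dvd_mul_left hr.out.pos h3
    have h5 := Nat.le_of_dvd (by omega) h4
    omega
  have hk0 : k ≠ 0 := by
    rintro rfl
    have h3 : (U : Subgroup G) = ⊥ := Subgroup.card_eq_one.1 (by rw [hk', pow_zero])
    have h4 : centralizer ((U : Subgroup G) : Set G) = ⊤ := by
      rw [h3, eq_top_iff]
      intro x _ y hy
      have : y = 1 := hy
      rw [this, one_mul, mul_one]
    rw [hC, h3] at h4
    have h5 : Nat.card G = 1 := by
      rw [← Subgroup.card_top (G := G), ← h4, Subgroup.card_bot]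
    have h6 : Nat.card ↥(normalizer ((U : Subgroup G) : Set G)) ∣ 1 := by
      rw [← h5]
      exact Subgroup.card_subgroup_dvd_card _
    rw [hN] at h6
    have h7 := Nat.le_of_dvd one_pos h6
    have h8 : 2 ≤ r * (r - 1) := by nlinarith [show 1 ≤ r - 1 by omega]
    omega
  have hUr : Nat.card U = r := by rw [hk', show k = 1 by omega, pow_one]
  obtain ⟨⟨u, hu⟩, huo⟩ := exists_prime_orderOf_dvd_card' (G := U) r (by rw [hUr])
  have huo' : orderOf u = r := by rw [← huo, Subgroup.orderOf_mk]
  have hu1 : u ≠ 1 := by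
    rintro rfl
    rw [orderOf_one] at huo'
    omega
  have hzu : zpowers u = U := by
    apply Subgroup.eq_of_le_of_card_ge (by rwa [zpowers_le])
    rw [Nat.card_zpowers, huo', hUr]
  refine ⟨u, huo', ?_, ?_⟩
  · intro i hi0 hi
    refine isConj_of_card hr.out hUr hC.le hN hu hu1 (Subgroup.pow_mem _ hu i) ?_
    intro h
    have := orderOf_dvd_of_pow_eq_one h
    rw [huo'] at this
    have := Nat.le_of_dvd hi0 this
    omega
  · have : centralizer ({u} : Set G) = centralizer ((U : Subgroup G) : Set G) := by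
      rw [← hzu, zpowers_eq_closure, centralizer_closure]
    rw [this, hC, hUr]

/-- **J₄**: faithful irreducible characters have degree at least 36. -/
theorem j4 {G : Type u} [Group G] [Finite G] (h : Cfsg.Spor.IsoJ4 G) {χ : G → ℂ} (hχ : Cfsg.IsIrrCharacter G χ)
    (hf : ∀ g, χ g = χ 1 → g = 1) {d : ℕ} (hd : χ 1 = d) : 36 ≤ d := by
  have hsim : IsSimpleGroup G := by
    obtain ⟨e⟩ := h
    have h1 : IsSimpleGroup Spor.J4 := Cfsg.Agent.S1703.result.1
    have : Nontrivial G := e.toEquiv.nontrivial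
    exact IsSimpleGroup.isSimpleGroup_of_surjective e.symm.toMonoidHom e.symm.surjective
  have hna : ¬ IsMulCommutative G := by
    intro hc
    obtain ⟨e⟩ := h
    have h1 : Nat.card Spor.J4 = 86775571046077562880 := Cfsg.Agent.S1703.result.2
    have hp : (Nat.card G).Prime := by
      let _ : CommGroup G := { mul_comm := fun a b => hc.is_comm.comm a b }
      exact IsSimpleGroup.prime_card
    rw [Nat.card_congr e.toEquiv, h1] at hp
    norm_num at hp
  have h5 := S5577.result hna (H337.isOfJankoFourType_of_isoJ4 h)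
  obtain ⟨U23, -⟩ : ∃ U : Sylow 23 G, True := ⟨default, trivial⟩
  obtain ⟨U29, -⟩ : ∃ U : Sylow 29 G, True := ⟨default, trivial⟩
  have : Fact (Nat.Prime 23) := ⟨by norm_num⟩
  have : Fact (Nat.Prime 29) := ⟨by norm_num⟩
  obtain ⟨u, hu, huc, huC⟩ := sylow_data U23 (h5.1 U23).1 (h5.1 U23).2 (by norm_num)
  obtain ⟨v, hv, hvc, hvC⟩ := sylow_data U29 (h5.2.1 U29).1 (h5.2.1 U29).2 (by norm_num)
  have hχc := Cfsg.Agent.Characters.Core.isIrr_isCharacter hχ
  obtain ⟨a, b, hab, hub⟩ := rat_val (by norm_num) hu hχc huc hd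
  obtain ⟨a', b', hab', hvb⟩ := rat_val (by norm_num) hv hχc hvc hd
  have hb : b ≠ 0 := by
    rintro rfl
    have h6 : χ u = χ 1 := by
      rw [hub, hd]
      have : d = a := by omega
      rw [this]
      simp
    have := hf u h6
    rw [this, orderOf_one] at hu
    norm_num at hu
  have hb' : b' ≠ 0 := by
    rintro rfl
    have h6 : χ v = χ 1 := by
      rw [hvb, hd]
      have : d = a' := by omega
      rw [this]
      simp
    have := hf v h6
    rw [this, orderOf_one] at hv
    norm_num at hv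
  by_contra hlt
  push Not at hlt
  have hd28 : 28 ≤ d := by omega
  have hb1 : b = 1 := by omega
  have h7 := normSq_le hχ u
  rw [hub, huC] at h7
  have h8 : Complex.normSq ((a : ℂ) - b) = ((a : ℝ) - b) ^ 2 := by
    have : (a : ℂ) - b = (((a : ℝ) - b : ℝ) : ℂ) := by push_cast; ring
    rw [this, Complex.normSq_ofReal]
    ring
  rw [h8, hb1] at h7
  have ha : 6 ≤ a := by omega
  have ha' : (6 : ℝ) ≤ a := by exact_mod_cast ha
  push_cast at h7
  nlinarith

end Cfsg.Agent.H755.Leo
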